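import Cfsg.Agent.H189.TW.Fr

/-!
# S3694, T6: the centralizer of the stabilizer of a frame is trivial (helper189)

`cent_false`.
-/

set_option autoImplicit false
set_option linter.unusedSectionVars false

namespace Cfsg.Agent.H189.TW

open Matrix Subgroup Cfsg Cfsg.Agent.H607.TW
open Cfsg.Agent.H748.TW (mt_mul mt_one mt_inj mt_mul_inv mt_inv_mul)

universe u

/-- the nilpotent matrices -/
def NilAx (F : Type) [Field F] [StarRing F] (m : ℕ) : Prop :=
  ∃ ν : Matrix (Fin m) (Fin m) F, ν * ν = 0 ∧ ν ≠ 0 ∧ νᴴ = -ν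

/-- a non-scalar matrix does not commute with some conjugate under the special unitary group -/
def ConjAx (F : Type) [Field F] [StarRing F] (m : ℕ) : Prop :=
  ∀ y : Matrix (Fin m) (Fin m) F, (¬ ∃ c : F, y = c • (1 : Matrix (Fin m) (Fin m) F)) →
    ∃ α : Matrix (Fin m) (Fin m) F, αᴴ * α = 1 ∧ α.det = 1 ∧ y * (α * y * αᴴ) ≠ (α * y * αᴴ) * y

section

variable {G : Type u} [Group G] {F : Type} [Field F] [Fintype F] [StarRing F] {q n m t : ℕ}
  (hF : Fintype.card F = q ^ 2) (hs : ∀ x : F, Star.star x = x ^ q) {π : ↥(Cfsg.SU n F q) →* G}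
  {T : G →* RingAut (Matrix (Fin n) (Fin n) F)} {N D : Subgroup G}
  {P : Fin t → Matrix (Fin n) (Fin m) F} {e : Fin t → Matrix (Fin n) (Fin n) F}

theorem blk_P (h : OF P) (α : Matrix (Fin m) (Fin m) F) (i : Fin t) : blk (P i) α * P i = P i * α := by
  rw [blk_def, Matrix.add_mul, Matrix.one_mul, Matrix.mul_assoc, h.self, Matrix.mul_one, Matrix.mul_sub, Matrix.mul_one]
  abel

theorem Ps_blk (h : OF P) (α : Matrix (Fin m) (Fin m) F) (i : Fin t) : (P i)ᴴ * blk (P i) α = α * (P i)ᴴ := by
  rw [blk_def, Matrix.mul_add, Matrix.mul_one, ← Matrix.mul_assoc, ← Matrix.mul_assoc, h.self, Matrix.one_mul,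
    Matrix.sub_mul, Matrix.one_mul]
  abel

theorem blk_P_ne (h : OF P) (α : Matrix (Fin m) (Fin m) F) {i j : Fin t} (hij : i ≠ j) : blk (P i) α * P j = P j := by
  rw [blk_def, Matrix.add_mul, Matrix.one_mul, Matrix.mul_assoc, h.orth _ _ hij, Matrix.mul_zero, add_zero]

/-- conjugation -/
theorem T_pi_eq (hT : Lf π T) {s : ↥(Cfsg.SU n F q)} {x y : Matrix (Fin n) (Fin n) F}
    (h : mt (iSU n F q) s * x = y * mt (iSU n F q) s) : T (π s) x = y := by
  rw [hT.pi, h, mul_assoc, mt_mul_inv, mul_one]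

theorem Fr.mem_of_comm (hT : Lf π T) (h : Fr π T D e) (he : ∀ i, e i = pr P i) {s : ↥(Cfsg.SU n F q)}
    (hsc : ∀ i, mt (iSU n F q) s * pr P i = pr P i * mt (iSU n F q) s) : π s ∈ D := by
  apply h.stab
  intro i
  exact ⟨i, by rw [he]; exact T_pi_eq hT (hsc i)⟩

/-- the rotation permutes the projections -/
theorem rot_pr (h : OF P) {i j : Fin t} (hij : i ≠ j) (k : Fin t) :
    rot P i j * pr P k = pr P (Equiv.swap i j k) * rot P i j := by
  have e0 : rot P i j * P i = - P j := rot_P h hij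
  have e1 : rot P i j * P j = P i := rot_P' h hij
  have f0 : (P i)ᴴ * rot P i j = (P j)ᴴ := by
    have h1 := congrArg Matrix.conjTranspose (rot_P' h hij.symm)
    rwa [Matrix.conjTranspose_mul, rot_star] at h1
  have f1 : (P j)ᴴ * rot P i j = -(P i)ᴴ := by
    have h1 := congrArg Matrix.conjTranspose (rot_P h hij.symm)
    rwa [Matrix.conjTranspose_mul, rot_star, Matrix.conjTranspose_neg] at h1
  by_cases hki : k = i
  · subst hki
    rw [Equiv.swap_apply_left, pr_def, pr_def, ← Matrix.mul_assoc, e0, Matrix.mul_assoc (P j), f1, Matrix.mul_neg,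
      Matrix.neg_mul]
  · by_cases hkj : k = j
    · subst hkj
      rw [Equiv.swap_apply_right, pr_def, pr_def, ← Matrix.mul_assoc, e1, Matrix.mul_assoc (P i), f0]
    · rw [Equiv.swap_apply_of_ne_of_ne hki hkj, pr_def, ← Matrix.mul_assoc, rot_P_ne h (Ne.symm hki) (Ne.symm hkj),
        Matrix.mul_assoc]
      have h1 := congrArg Matrix.conjTranspose (rot_P_ne h (Ne.symm hkj) (Ne.symm hki))
      rw [Matrix.conjTranspose_mul, rot_star] at h1
      rw [h1]

include hF hs in
theorem exists_rot_T (h : OF P) (hT : Lf π T) (hn : 0 < n) {i j : Fin t} (hij : i ≠ j) :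
    ∃ s : ↥(Cfsg.SU n F q), mt (iSU n F q) s = rot P i j ∧ ∀ k, T (π s) (pr P k) = pr P (Equiv.swap i j k) := by
  obtain ⟨s, hs1⟩ := exists_rot hF hs h hn hij
  refine ⟨s, hs1, fun k => ?_⟩
  apply T_pi_eq hT
  rw [hs1, rot_pr h hij]

theorem comm_scalar (hM : Model N (iSU n F q) π) (hT : Lf π T) {x : G} {s : ↥(Cfsg.SU n F q)} (h : x * π s = π s * x) :
    ∃ c : F, T x (mt (iSU n F q) s) = c • mt (iSU n F q) s := by
  obtain ⟨s', h1, h2⟩ := hT.conj x s
  have h3 : π (s' * s⁻¹) = 1 := by
    rw [map_mul, map_inv, h2, h]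
    group
  obtain ⟨c, hc⟩ := (hM.ker _).1 h3
  refine ⟨c, ?_⟩
  have h6 : s' = s' * s⁻¹ * s := by group
  rw [← h1, h6, mt_mul, hc, smul_mul_assoc, one_mul]

theorem smul_pr_inj (hP : OF P) (hm : 0 < m) {c d : F} {i : Fin t} (h : c • pr P i = d • pr P i) : c = d := by
  by_contra hne
  rw [← sub_eq_zero, ← sub_smul, smul_eq_zero] at h
  rcases h with h | h
  · exact hne (sub_eq_zero.1 h)
  · exact hP.pr_ne_zero hm i h

theorem smul_P_inj (hP : OF P) (hm : 0 < m) {c d : F} {i : Fin t} (h : c • P i = d • P i) : c = d := by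
  apply smul_pr_inj hP hm (i := i)
  rw [pr_def, ← Matrix.smul_mul, h, Matrix.smul_mul]

theorem exists_third (ht : 3 ≤ t) (i j : Fin t) : ∃ k : Fin t, k ≠ i ∧ k ≠ j := by
  classical
  by_contra hcon
  push Not at hcon
  have h1 : (Finset.univ : Finset (Fin t)) ⊆ {i, j} := by
    intro k _
    rw [Finset.mem_insert, Finset.mem_singleton]
    by_cases h : k = i
    · exact Or.inl h
    · exact Or.inr (hcon k h)
  have h2 := Finset.card_le_card h1
  rw [Finset.card_univ, Fintype.card_fin] at h2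
  have h3 := Finset.card_insert_le i ({j} : Finset (Fin t))
  rw [Finset.card_singleton] at h3
  omega

theorem exists_other (ht : 2 ≤ t) (i : Fin t) : ∃ k : Fin t, k ≠ i := by
  have : Nontrivial (Fin t) := Fin.nontrivial_iff_two_le.2 ht
  exact exists_ne i

include hF hs in
/-- **an element centralizing the stabilizer of the frame is trivial** -/
theorem cent_false (hn : 3 ≤ n) (hM : Model N (iSU n F q) π) (hT : Lf π T) (h : Fr π T D e) (hP : OF P)
    (he : ∀ i, e i = pr P i) (hm : 0 < m) (hnil : m ≠ 1 → NilAx F m) (hconj : ConjAx F m)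
    (ht : 3 ≤ t ∨ (2 : F) = 0) {x : G} (hx : x ∈ D) (hcomm : ∀ s, π s ∈ D → x * π s = π s * x) : x = 1 := by
  have hn0 : 0 < n := by omega
  have ht2 := h.two
  have hkey : ∀ s, π s ∈ D → ∃ c : F, T x (mt (iSU n F q) s) = c • mt (iSU n F q) s := fun s hsD =>
    comm_scalar hM hT (hcomm s hsD)
  -- `c = 1`
  have hc1 : ∀ c : F, (3 ≤ t → c = 1) → c * c = 1 → c = 1 := by
    intro c h1 h2
    rcases ht with h3 | h3
    · exact h1 h3
    · have h4 : (c - 1) * (c - 1) = 0 := by
        have : (c - 1) * (c - 1) = c * c + 1 - 2 * c := by ring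
        rw [this, h2, h3, zero_mul, sub_zero, one_add_one_eq_two, h3]
      exact sub_eq_zero.1 (mul_self_eq_zero.1 h4)
  -- the projections are fixed
  have hfix : ∀ i, T x (pr P i) = pr P i := by
    intro i
    obtain ⟨j, hj⟩ := h.perm x hx i
    rw [he, he] at hj
    by_cases hij : j = i
    · rw [hj, hij]
    exfalso
    by_cases hm1 : m = 1
    · have ht3 : 3 ≤ t := by
        have h1 := hP.card
        rw [hm1, mul_one] at h1
        omega
      obtain ⟨l, hli, hlj⟩ := exists_third ht3 i j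
      obtain ⟨s, -, hsT⟩ := exists_rot_T hF hs hP hT hn0 (Ne.symm hlj)
      have hsD : π s ∈ D := by
        apply h.stab
        intro k
        exact ⟨Equiv.swap j l k, by rw [he, he, hsT]⟩
      have h1 := congrArg (fun g => T g (pr P i)) (hcomm s hsD)
      simp only [T_mul] at h1
      rw [hsT, Equiv.swap_apply_of_ne_of_ne (Ne.symm hij) (Ne.symm hli), hj, hsT, Equiv.swap_apply_left] at h1
      exact hlj (hP.pr_inj hm h1).symm
    · obtain ⟨ν, h1, h2, h3⟩ := hnil hm1
      have hα : (1 + ν)ᴴ * (1 + ν) = 1 := by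
        rw [Matrix.conjTranspose_add, Matrix.conjTranspose_one, h3]
        calc (1 + -ν) * (1 + ν) = 1 - ν * ν := by noncomm_ring
          _ = 1 := by rw [h1, sub_zero]
      obtain ⟨s, hs1⟩ := exists_blk hF hs hP i hα (Cfsg.Agent.H748.TW.det_one_add hm ⟨2, by rw [pow_two, h1]⟩)
      have hsD : π s ∈ D := h.mem_of_comm hT he (fun k => by rw [hs1, blk_comm hP])
      obtain ⟨c, hc⟩ := hkey s hsD
      have hblk : mt (iSU n F q) s = 1 + P i * ν * (P i)ᴴ := by
        rw [hs1, blk_def, add_sub_cancel_left]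
      have h4 : pr P i * (P i * ν * (P i)ᴴ) = P i * ν * (P i)ᴴ := by
        rw [← Matrix.mul_assoc, ← Matrix.mul_assoc, hP.pr_P]
      have h5 : pr P i * T x (P i * ν * (P i)ᴴ) = 0 := by
        rw [← h4, map_mul, hj, ← mul_assoc, hP.pr_mul_ne (Ne.symm hij), zero_mul]
      rw [hblk, map_add, map_one] at hc
      have h6 := congrArg (fun z => pr P i * z) hc
      beta_reduce at h6
      rw [mul_add, mul_one, h5, add_zero, mul_smul_comm, mul_add, mul_one, h4, smul_add] at h6
      -- pr = c pr + c ν'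
      have h7 := congrArg (fun z => (P i)ᴴ * z * P i) h6
      beta_reduce at h7
      have h8 : (P i)ᴴ * pr P i * P i = 1 := by rw [hP.Ps_pr, hP.self]
      have h9 : (P i)ᴴ * (P i * ν * (P i)ᴴ) * P i = ν := by
        calc _ = ((P i)ᴴ * P i) * ν * ((P i)ᴴ * P i) := by simp only [Matrix.mul_assoc]
          _ = ν := by rw [hP.self, Matrix.one_mul, Matrix.mul_one]
      rw [h8, Matrix.mul_add, Matrix.add_mul, Matrix.mul_smul, Matrix.smul_mul, h8, Matrix.mul_smul, Matrix.smul_mul,
        h9] at h7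
      have h10 := congrArg (fun z => z * ν) h7
      beta_reduce at h10
      rw [Matrix.one_mul, Matrix.add_mul, Matrix.smul_mul, Matrix.one_mul, Matrix.smul_mul, h1, smul_zero, add_zero] at h10
      have h11 : (c - 1) • ν = 0 := by rw [sub_smul, one_smul, ← h10, sub_self]
      rw [smul_eq_zero, sub_eq_zero] at h11
      rw [h11.resolve_right h2, one_smul, one_smul] at h7
      exact h2 (left_eq_add.1 h7)
  -- linearity
  obtain ⟨σ, hσ⟩ := semi hn0 (T x)
  have hσ1 : ∀ a : F, a * a ^ q = 1 → σ a = a := by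
    intro a ha
    have ha0 : a ≠ 0 := by
      rintro rfl
      rw [zero_mul] at ha
      exact zero_ne_one ha
    let i0 : Fin t := ⟨0, by omega⟩
    let i1 : Fin t := ⟨1, by omega⟩
    have h01 : i0 ≠ i1 := by simp [i0, i1]
    obtain ⟨s, hs1⟩ := exists_dg hF hs hP h01 ha
    have hpk : ∀ (b c : F) (k : Fin t), (1 + (b - 1) • pr P i0 + (c - 1) • pr P i1) * pr P k =
        (if k = i0 then b else if k = i1 then c else 1) • pr P k := by
      intro b c k
      rw [add_mul, add_mul, one_mul, smul_mul_assoc, smul_mul_assoc]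
      by_cases hk0 : k = i0
      · rw [if_pos hk0, hk0, hP.pr_mul_self, hP.pr_mul_ne h01.symm, smul_zero, add_zero, sub_smul, one_smul]
        abel
      · rw [if_neg hk0]
        by_cases hk1 : k = i1
        · rw [if_pos hk1, hk1, hP.pr_mul_self, hP.pr_mul_ne h01, smul_zero, add_zero, sub_smul, one_smul]
          abel
        · rw [if_neg hk1, hP.pr_mul_ne (Ne.symm hk0), hP.pr_mul_ne (Ne.symm hk1), smul_zero, smul_zero, add_zero, add_zero,
            one_smul]
    have hkp : ∀ (b c : F) (k : Fin t), pr P k * (1 + (b - 1) • pr P i0 + (c - 1) • pr P i1) =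
        (if k = i0 then b else if k = i1 then c else 1) • pr P k := by
      intro b c k
      rw [mul_add, mul_add, mul_one, mul_smul_comm, mul_smul_comm]
      by_cases hk0 : k = i0
      · rw [if_pos hk0, hk0, hP.pr_mul_self, hP.pr_mul_ne h01, smul_zero, add_zero, sub_smul, one_smul]
        abel
      · rw [if_neg hk0]
        by_cases hk1 : k = i1
        · rw [if_pos hk1, hk1, hP.pr_mul_self, hP.pr_mul_ne h01.symm, smul_zero, add_zero, sub_smul, one_smul]
          abel
        · rw [if_neg hk1, hP.pr_mul_ne hk0, hP.pr_mul_ne hk1, smul_zero, smul_zero, add_zero, add_zero,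
            one_smul]
    have hsD : π s ∈ D := h.mem_of_comm hT he (fun k => by rw [hs1, hpk, hkp])
    obtain ⟨c, hc⟩ := hkey s hsD
    have h1 : T x (mt (iSU n F q) s) = 1 + (σ a - 1) • pr P i0 + (σ a⁻¹ - 1) • pr P i1 := by
      rw [hs1, map_add, map_add, map_one, hσ, hσ, hfix, hfix, map_sub, map_sub, map_one]
    rw [h1, hs1] at hc
    have h2 : ∀ k, (if k = i0 then σ a else if k = i1 then σ a⁻¹ else 1) =
        c * (if k = i0 then a else if k = i1 then a⁻¹ else 1) := by
      intro k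
      apply smul_pr_inj hP hm (i := k)
      rw [← hpk, hc, smul_mul_assoc, hpk, smul_smul]
    have h3 := h2 i0
    have h4 := h2 i1
    rw [if_pos rfl, if_pos rfl] at h3
    rw [if_neg h01.symm, if_pos rfl, if_neg h01.symm, if_pos rfl] at h4
    have hcc : c = 1 := by
      apply hc1
      · intro ht3
        obtain ⟨k, hk0, hk1⟩ := exists_third ht3 i0 i1
        have h5 := h2 k
        rw [if_neg hk0, if_neg hk1, if_neg hk0, if_neg hk1, mul_one] at h5
        exact h5.symm
      · have h5 : σ a * σ a⁻¹ = 1 := by rw [← map_mul, mul_inv_cancel₀ ha0, map_one]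
        rw [h3, h4] at h5
        calc c * c = c * a * (c * a⁻¹) := by field_simp
          _ = 1 := h5
    rw [h3, hcc, one_mul]
  have hσ2 := fix_of_norm hF σ hσ1
  -- the matrix `B`
  obtain ⟨B, σ', hB⟩ := hT.semi x
  set X : Matrix (Fin n) (Fin n) F := (B : Matrix (Fin n) (Fin n) F) with hX
  have hinv := Cfsg.Agent.H296.TW.GL_inv_mul B
  have hinv' := Cfsg.Agent.H296.TW.GL_mul_inv B
  have hσ' : ∀ c, σ' c = c := by
    intro c
    have h1 := hB (c • 1)
    rw [hσ, hσ2, map_one] at h1
    have h2 : ((c • (1 : Matrix (Fin n) (Fin n) F)).map σ') = σ' c • 1 := by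
      ext i j
      rw [Matrix.map_apply, Matrix.smul_apply, Matrix.smul_apply, smul_eq_mul, smul_eq_mul, map_mul, Matrix.one_apply]
      split_ifs <;> simp
    rw [h2, Matrix.mul_smul, Matrix.smul_mul, Matrix.mul_one, hinv'] at h1
    have h3 := congrFun (congrFun h1 ⟨0, hn0⟩) ⟨0, hn0⟩
    simp only [Matrix.smul_apply, Matrix.one_apply_eq, smul_eq_mul, mul_one] at h3
    exact h3.symm
  have hBX : ∀ y z, T x y = z → X * y = z * X := by
    intro y z hyz
    rw [hB] at hyz
    have h1 : y.map σ' = y := by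
      ext i j
      rw [Matrix.map_apply, hσ']
    rw [h1] at hyz
    rw [← hyz, Matrix.mul_assoc, hinv, Matrix.mul_one]
  have hXP : ∀ i, X * P i = P i * ((P i)ᴴ * X * P i) := by
    intro i
    have h1 := hBX _ _ (hfix i)
    calc X * P i = (X * pr P i) * P i := by rw [Matrix.mul_assoc, hP.pr_P]
      _ = pr P i * X * P i := by rw [h1]
      _ = _ := by rw [pr_def]; simp only [Matrix.mul_assoc]
  have hscal : ∀ i, ∃ β : F, X * P i = β • P i := by
    intro i
    by_cases hsc : ∃ c : F, (P i)ᴴ * X * P i = c • (1 : Matrix (Fin m) (Fin m) F)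
    · obtain ⟨c, hc⟩ := hsc
      exact ⟨c, by rw [hXP, hc, Matrix.mul_smul, Matrix.mul_one]⟩
    · exfalso
      obtain ⟨α, h1, h2, h3⟩ := hconj _ hsc
      obtain ⟨s, hs1⟩ := exists_blk hF hs hP i h1 h2
      have hsD : π s ∈ D := h.mem_of_comm hT he (fun k => by rw [hs1, blk_comm hP])
      obtain ⟨c, hc⟩ := hkey s hsD
      have hcc : c = 1 := by
        obtain ⟨k, hk⟩ := exists_other ht2 i
        have h4 := congrArg (fun z => z * pr P k) hc
        beta_reduce at h4
        rw [smul_mul_assoc, hs1, blk_pr_ne hP α (Ne.symm hk)] at h4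
        have h5 : T x (blk (P i) α) * pr P k = pr P k := by
          conv_lhs => rw [← hfix k]
          rw [← map_mul, blk_pr_ne hP α (Ne.symm hk), hfix]
        rw [h5] at h4
        have h6 : (1 : F) • pr P k = c • pr P k := by rw [one_smul]; exact h4
        exact (smul_pr_inj hP hm h6).symm
      rw [hcc, one_smul, hs1] at hc
      have h4 := hBX _ _ hc
      have h5 : (P i)ᴴ * X * P i * α = α * ((P i)ᴴ * X * P i) := by
        calc _ = (P i)ᴴ * (X * blk (P i) α) * P i := by
              rw [Matrix.mul_assoc ((P i)ᴴ * X), ← blk_P hP]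
              simp only [Matrix.mul_assoc]
          _ = (P i)ᴴ * blk (P i) α * X * P i := by rw [h4]; simp only [Matrix.mul_assoc]
          _ = _ := by rw [Ps_blk hP]; simp only [Matrix.mul_assoc]
      apply h3
      have h6 : α * αᴴ = 1 := mul_eq_one_comm.1 h1
      have h7 : α * ((P i)ᴴ * X * P i) * αᴴ = (P i)ᴴ * X * P i := by
        rw [← h5, Matrix.mul_assoc, h6, Matrix.mul_one]
      rw [h7]
  choose β hβ using hscal
  have hβ0 : ∀ i, β i ≠ 0 := by
    intro i h0
    have h1 := hβ i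
    rw [h0, zero_smul] at h1
    have h2 : P i = 0 := by
      calc P i = (((B⁻¹ : Matrix.GeneralLinearGroup (Fin n) F) : Matrix (Fin n) (Fin n) F) * X) * P i := by
            rw [hinv, Matrix.one_mul]
        _ = 0 := by rw [Matrix.mul_assoc, h1, Matrix.mul_zero]
    have h3 : pr P i = 0 := by rw [pr_def, h2, Matrix.zero_mul]
    exact hP.pr_ne_zero hm i h3
  have hββ : ∀ i j, i ≠ j → β i = β j := by
    intro i j hij
    obtain ⟨s, hs1, hsT⟩ := exists_rot_T hF hs hP hT hn0 hij
    have hsD : π s ∈ D := by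
      apply h.stab
      intro k
      exact ⟨Equiv.swap i j k, by rw [he, he, hsT]⟩
    obtain ⟨c, hc⟩ := hkey s hsD
    rw [hs1] at hc
    have h1 := hBX _ _ hc
    have h2 : ∀ k, X * (rot P i j * P k) = (c * β k) • (rot P i j * P k) := by
      intro k
      calc X * (rot P i j * P k) = (c • rot P i j) * X * P k := by rw [← h1, Matrix.mul_assoc]
        _ = (c • rot P i j) * (β k • P k) := by rw [Matrix.mul_assoc, hβ]
        _ = _ := by rw [Matrix.smul_mul, Matrix.mul_smul, smul_smul]
    have h3 := h2 i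
    rw [rot_P hP hij, Matrix.mul_neg, hβ, smul_neg, neg_inj] at h3
    have h4 := h2 j
    rw [rot_P' hP hij, hβ] at h4
    have e1 := smul_P_inj hP hm h3
    have e2 := smul_P_inj hP hm h4
    have hcc : c = 1 := by
      apply hc1
      · intro ht3
        obtain ⟨k, hki, hkj⟩ := exists_third ht3 i j
        have h5 := h2 k
        rw [rot_P_ne hP (Ne.symm hki) (Ne.symm hkj), hβ] at h5
        have h6 := smul_P_inj hP hm h5
        exact mul_right_cancel₀ (hβ0 k) (by rw [one_mul, ← h6])
      · apply mul_right_cancel₀ (hβ0 i)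
        rw [one_mul, mul_assoc, ← e1, ← e2]
    rw [e2, hcc, one_mul]
  -- `X` is scalar
  have hXs : ∃ b : F, X = b • (1 : Matrix (Fin n) (Fin n) F) := by
    let i0 : Fin t := ⟨0, by omega⟩
    refine ⟨β i0, ext_OF hP fun i => ?_⟩
    rw [hβ, Matrix.smul_mul, Matrix.one_mul]
    by_cases hi : i = i0
    · rw [hi]
    · rw [hββ i i0 hi]
  obtain ⟨b, hb⟩ := hXs
  apply hT.faithful
  intro y
  have h1 := hBX y _ rfl
  rw [hb, smul_mul_assoc, one_mul, mul_smul_comm, mul_one] at h1
  have hb0 : b ≠ 0 := by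
    rintro rfl
    rw [zero_smul] at hb
    rw [← hX, hb, Matrix.zero_mul] at hinv'
    have h6 := congrFun (congrFun hinv' ⟨0, hn0⟩) ⟨0, hn0⟩
    rw [Matrix.zero_apply, Matrix.one_apply_eq] at h6
    exact zero_ne_one h6
  have h2 := congrArg (fun z => b⁻¹ • z) h1
  simp only [smul_smul, inv_mul_cancel₀ hb0, one_smul] at h2
  exact h2.symm

end

end Cfsg.Agent.H189.TW
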