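import Cfsg.Agent.H189.TW.Moves

/-!
# S3694, T6: the frames of `A` and `C` coincide (helper189)

`final_false`.
-/

set_option autoImplicit false
set_option linter.unusedSectionVars false

namespace Cfsg.Agent.H189.TW

open Matrix Subgroup Cfsg Cfsg.Agent.H607.TW
open Cfsg.Agent.H748.TW (mt_mul mt_one mt_inj mt_mul_inv mt_inv_mul)

universe u

section

variable {G : Type u} [Group G] {F : Type} [Field F] [Fintype F] [StarRing F] {q n m t : ℕ}
  (hF : Fintype.card F = q ^ 2) (hs : ∀ x : F, Star.star x = x ^ q) {π : ↥(Cfsg.SU n F q) →* G}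
  {T : G →* RingAut (Matrix (Fin n) (Fin n) F)} {N D A C : Subgroup G}
  {P P' : Fin t → Matrix (Fin n) (Fin m) F} {e e' : Fin t → Matrix (Fin n) (Fin n) F} {r : ℕ}

/-- block diagonal elements -/
theorem blk_form (hP : OF P) (hT : Lf π T) {y : ↥(Cfsg.SU n F q)} {i : Fin t} (h : T (π y) (pr P i) = pr P i) :
    mt (iSU n F q) y * P i = P i * ((P i)ᴴ * mt (iSU n F q) y * P i) := by
  have h1 : mt (iSU n F q) y * pr P i = pr P i * mt (iSU n F q) y := by
    rw [hT.pi] at h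
    calc mt (iSU n F q) y * pr P i = mt (iSU n F q) y * pr P i * (mt (iSU n F q) y⁻¹ * mt (iSU n F q) y) := by
          rw [mt_inv_mul, mul_one]
      _ = _ := by rw [← mul_assoc, h]
  calc mt (iSU n F q) y * P i = (mt (iSU n F q) y * pr P i) * P i := by rw [Matrix.mul_assoc, hP.pr_P]
    _ = _ := by rw [h1, pr_def]; simp only [Matrix.mul_assoc]

theorem corner_mul {k : ℕ} {Q : Matrix (Fin n) (Fin k) F} {V Y : Matrix (Fin n) (Fin n) F} {W : Matrix (Fin k) (Fin k) F}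
    (hV : V * Q = Q * W) : Qᴴ * (Y * V) * Q = (Qᴴ * Y * Q) * W := by
  rw [Matrix.mul_assoc, Matrix.mul_assoc, hV]
  simp only [Matrix.mul_assoc]

theorem corner_mul' {k : ℕ} {Q : Matrix (Fin n) (Fin k) F} (hQ : Qᴴ * Q = 1) {V Y : Matrix (Fin n) (Fin n) F}
    {W : Matrix (Fin k) (Fin k) F} (hV : V * Q = Q * W) (hY : Y * Q = Q * (Qᴴ * Y * Q)) :
    Qᴴ * (V * Y) * Q = W * (Qᴴ * Y * Q) := by
  rw [Matrix.mul_assoc, Matrix.mul_assoc, hY, ← Matrix.mul_assoc V, hV, Matrix.mul_assoc Q, ← Matrix.mul_assoc Qᴴ Q, hQ,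
    Matrix.one_mul]

theorem triv_of {k : ℕ} {Q : Matrix (Fin n) (Fin k) F} {U Y : Matrix (Fin n) (Fin n) F} {K : Matrix (Fin k) (Fin k) F}
    (hU : U * (Y * (Y * Q)) = Y * (Y * Q)) (hK : Y * (Y * Q) * K = Q) : U * Q = Q := by
  calc U * Q = U * (Y * (Y * Q) * K) := by rw [hK]
    _ = (U * (Y * (Y * Q))) * K := by simp only [Matrix.mul_assoc]
    _ = Q := by rw [hU, hK]

include hF hs in
/-- the commutator of a block diagonal element with a conjugate under `SU(V_i)` -/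
theorem comm_blk (hP : OF P) (hT : Lf π T) {y : ↥(Cfsg.SU n F q)} (hy : ∀ i, T (π y) (pr P i) = pr P i) {i : Fin t}
    {α : Matrix (Fin m) (Fin m) F} {s : ↥(Cfsg.SU n F q)} (hs1 : mt (iSU n F q) s = blk (P i) α) :
    (∀ k, k ≠ i → mt (iSU n F q) (s * y * s⁻¹) * P k = mt (iSU n F q) y * P k) ∧
    mt (iSU n F q) (s * y * s⁻¹) * P i = P i * (α * ((P i)ᴴ * mt (iSU n F q) y * P i) * αᴴ) := by
  have hsi : mt (iSU n F q) s⁻¹ = blk (P i) αᴴ := by rw [← mt_star hF hs, hs1, blk_star]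
  refine ⟨fun k hk => ?_, ?_⟩
  · rw [mt_mul, mt_mul, hs1, hsi, Matrix.mul_assoc, blk_P_ne hP _ (Ne.symm hk), Matrix.mul_assoc, blk_form hP hT (hy k),
      ← Matrix.mul_assoc, blk_P_ne hP _ (Ne.symm hk)]
  · rw [mt_mul, mt_mul, hs1, hsi, Matrix.mul_assoc, blk_P hP, Matrix.mul_assoc, ← Matrix.mul_assoc _ (P i),
      blk_form hP hT (hy i), ← Matrix.mul_assoc, ← Matrix.mul_assoc, blk_P hP]
    simp only [Matrix.mul_assoc]

include hF hs in
/-- the elements of an abelian normal subgroup fixing the frame are scalar on the blocks -/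
theorem scal (h : Fr π T D e) (hP : OF P) (he : ∀ i, e i = pr P i) (hM : Model N (iSU n F q) π) (hT : Lf π T)
    (hm : 0 < m) (hconj : ConjAx F m) {Y : Subgroup G} (hYab : ∀ x ∈ Y, ∀ y ∈ Y, x * y = y * x)
    (hYn : ∀ c ∈ D, ∀ y ∈ Y, c * y * c⁻¹ ∈ Y) (hfix : ∀ y, π y ∈ Y → ∀ i, T (π y) (pr P i) = pr P i)
    {y : ↥(Cfsg.SU n F q)} (hy : π y ∈ Y) : ∃ χ : Fin t → F, mt (iSU n F q) y = Dg P χ := by
  have key : ∀ i, ∃ c : F, mt (iSU n F q) y * P i = c • P i := by
    intro i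
    have hyi := hfix y hy
    by_cases hsc : ∃ c : F, (P i)ᴴ * mt (iSU n F q) y * P i = c • (1 : Matrix (Fin m) (Fin m) F)
    · obtain ⟨c, hc⟩ := hsc
      exact ⟨c, by rw [blk_form hP hT (hyi i), hc, Matrix.mul_smul, Matrix.mul_one]⟩
    · exfalso
      obtain ⟨α, h1, h2, h3⟩ := hconj _ hsc
      obtain ⟨s, hs1⟩ := exists_blk hF hs hP i h1 h2
      have hsD : π s ∈ D := h.mem_of_comm hT he (fun k => by rw [hs1, blk_comm hP])
      obtain ⟨b1, b2⟩ := comm_blk hF hs hP hT hyi hs1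
      have h4 : π (s * y * s⁻¹) ∈ Y := by
        rw [map_mul, map_mul, map_inv]
        exact hYn _ hsD _ hy
      have h5 : π (y * (s * y * s⁻¹) * y⁻¹ * (s * y * s⁻¹)⁻¹) = 1 := by
        rw [map_mul, map_mul, map_mul, map_inv, map_inv, hYab _ hy _ h4]
        group
      obtain ⟨z, hz⟩ := (hM.ker _).1 h5
      have h6 : mt (iSU n F q) y * mt (iSU n F q) (s * y * s⁻¹) =
          z • (mt (iSU n F q) (s * y * s⁻¹) * mt (iSU n F q) y) := by
        have h7 : y * (s * y * s⁻¹) = (y * (s * y * s⁻¹) * y⁻¹ * (s * y * s⁻¹)⁻¹) * ((s * y * s⁻¹) * y) := by group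
        rw [← mt_mul, h7, mt_mul, hz, smul_mul_assoc, one_mul, mt_mul (s * y * s⁻¹)]
      obtain ⟨k, hk⟩ := exists_other h.two i
      have h7 : mt (iSU n F q) y * (mt (iSU n F q) y * P k) = z • (mt (iSU n F q) y * (mt (iSU n F q) y * P k)) := by
        have h8 := congrArg (fun x => x * P k) h6
        beta_reduce at h8
        rw [Matrix.mul_assoc, b1 k hk, Matrix.smul_mul, Matrix.mul_assoc] at h8
        have h9 : mt (iSU n F q) (s * y * s⁻¹) * (mt (iSU n F q) y * P k) =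
            mt (iSU n F q) y * (mt (iSU n F q) y * P k) := by
          conv_lhs => rw [blk_form hP hT (hyi k)]
          rw [← Matrix.mul_assoc, b1 k hk, Matrix.mul_assoc, ← blk_form hP hT (hyi k)]
        rw [h9] at h8
        exact h8
      have hz1 : z = 1 := by
        by_contra hne
        have h8 : (1 - z) • (mt (iSU n F q) y * (mt (iSU n F q) y * P k)) = 0 := by
          rw [sub_smul, one_smul, ← h7, sub_self]
        rw [smul_eq_zero, sub_eq_zero] at h8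
        have h9 := h8.resolve_left (fun h => hne h.symm)
        have h10 : P k = 0 := by
          calc P k = mt (iSU n F q) y⁻¹ * (mt (iSU n F q) y⁻¹ * (mt (iSU n F q) y * (mt (iSU n F q) y * P k))) := by
                rw [← Matrix.mul_assoc (mt (iSU n F q) y⁻¹) (mt (iSU n F q) y), mt_inv_mul, Matrix.one_mul,
                  ← Matrix.mul_assoc, mt_inv_mul, Matrix.one_mul]
            _ = 0 := by rw [h9, Matrix.mul_zero, Matrix.mul_zero]
        exact hP.pr_ne_zero hm k (by rw [pr_def, h10, Matrix.zero_mul])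
      rw [hz1, one_smul] at h6
      apply h3
      have h8 := congrArg (fun x => (P i)ᴴ * x * P i) h6
      beta_reduce at h8
      rw [corner_mul b2, corner_mul' (hP.self i) b2 (blk_form hP hT (hyi i))] at h8
      exact h8
  choose χ hχ using key
  refine ⟨χ, Dg_ext hP fun i => ?_⟩
  rw [pr_def, ← Matrix.mul_assoc, hχ, Matrix.smul_mul]

theorem exists_perm_two {a b j k : Fin t} (hab : a ≠ b) (hjk : j ≠ k) : ∃ σ : Equiv.Perm (Fin t), σ a = j ∧ σ b = k := by
  refine ⟨Equiv.swap (Equiv.swap a j b) k * Equiv.swap a j, ?_, ?_⟩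
  · rw [Equiv.Perm.mul_apply, Equiv.swap_apply_left, Equiv.swap_apply_of_ne_of_ne _ hjk]
    intro h
    apply hab
    have h1 := congrArg (Equiv.swap a j) h
    rw [Equiv.swap_apply_right, Equiv.swap_apply_self] at h1
    exact h1
  · rw [Equiv.Perm.mul_apply, Equiv.swap_apply_left]

theorem pr_Dg (hP : OF P) (c : Fin t → F) (i : Fin t) : pr P i * Dg P c = c i • pr P i := by
  rw [Dg, Finset.mul_sum, Finset.sum_eq_single i]
  · rw [mul_smul_comm, hP.pr_mul_self]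
  · intro j _ hj
    rw [mul_smul_comm, hP.pr_mul_ne (Ne.symm hj), smul_zero]
  · intro h
    exact (h (Finset.mem_univ _)).elim

include hF hs in
/-- the characters of `Y` on the blocks of `C` are distinct -/
theorem dist (hn0 : 0 < n) (hM : Model N (iSU n F q) π) (hT : Lf π T) (hC : Fr π T C e')
    (hP' : OF P') (he' : ∀ i, e' i = pr P' i)
    {Y : Subgroup G} (hY0 : Y ≠ ⊥) (hYN : Y ≤ N) (hYn : ∀ c ∈ C, ∀ y ∈ Y, c * y * c⁻¹ ∈ Y)
    (hscal : ∀ y, π y ∈ Y → ∃ χ : Fin t → F, mt (iSU n F q) y = Dg P' χ) (j k : Fin t) (hjk : j ≠ k) :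
    ∃ y, π y ∈ Y ∧ ∃ χ : Fin t → F, mt (iSU n F q) y = Dg P' χ ∧ χ j ≠ χ k := by
  obtain ⟨x, hxY, hx1⟩ : ∃ x ∈ Y, x ≠ 1 := by
    by_contra hcon
    push Not at hcon
    exact hY0 ((Subgroup.eq_bot_iff_forall _).2 hcon)
  have hxN := hYN hxY
  rw [← hM.range] at hxN
  obtain ⟨y0, rfl⟩ := hxN
  obtain ⟨χ, hχ⟩ := hscal y0 hxY
  obtain ⟨a, b, hab⟩ : ∃ a b, χ a ≠ χ b := by
    by_contra hcon
    push Not at hcon
    apply hx1
    rw [hM.ker]
    have ht := hC.two
    refine ⟨χ ⟨0, by omega⟩, ?_⟩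
    rw [hχ]
    symm
    apply Dg_ext hP'
    intro i
    rw [smul_mul_assoc, one_mul, hcon i ⟨0, by omega⟩]
  have hab' : a ≠ b := by
    rintro rfl
    exact hab rfl
  obtain ⟨σ, hσa, hσb⟩ := exists_perm_two hab' hjk
  obtain ⟨w, hwC, hw⟩ := exists_perm hF hs hC hP' he' hT hn0 σ
  refine ⟨w * y0 * w⁻¹, ?_, fun i => χ (σ.symm i), ?_, ?_⟩
  · rw [map_mul, map_mul, map_inv]
    exact hYn _ hwC _ hxY
  · rw [mt_mul, mt_mul, ← hT.pi, hχ, T_Dg hT hw]
  · change χ (σ.symm j) ≠ χ (σ.symm k)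
    rw [← hσa, ← hσb, Equiv.symm_apply_apply, Equiv.symm_apply_apply]
    exact hab

/-- the block on which all the elements of `Y` are scalar -/
theorem blk_scalar (hT : Lf π T) (hP : OF P) (hP' : OF P') (hm : 0 < m) {Y : Subgroup G}
    (hfix : ∀ y, π y ∈ Y → ∀ i, T (π y) (pr P i) = pr P i)
    (hdist : ∀ j k : Fin t, j ≠ k → ∃ y, π y ∈ Y ∧ ∃ χ : Fin t → F, mt (iSU n F q) y = Dg P' χ ∧ χ j ≠ χ k) {i : Fin t}
    (hall : ∀ y, π y ∈ Y → ∃ c : F, (P i)ᴴ * mt (iSU n F q) y * P i = c • (1 : Matrix (Fin m) (Fin m) F)) :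
    ∃ j, pr P i = pr P' j := by
  obtain ⟨j, hj⟩ : ∃ j, pr P' j * pr P i ≠ 0 := by
    by_contra hcon
    push Not at hcon
    apply hP.pr_ne_zero hm i
    rw [← hP'.eq_sum (pr P i)]
    exact Finset.sum_eq_zero fun j _ => hcon j
  refine ⟨j, ?_⟩
  have hlam : ∀ y, π y ∈ Y → ∀ χ : Fin t → F, mt (iSU n F q) y = Dg P' χ → ∃ c : F, ∀ k,
      pr P' k * pr P i ≠ 0 → χ k = c := by
    intro y hy χ hχ
    obtain ⟨c, hc⟩ := hall y hy
    refine ⟨c, fun k hk => ?_⟩
    have h1 : mt (iSU n F q) y * P i = c • P i := by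
      rw [blk_form hP hT (hfix y hy i), hc, Matrix.mul_smul, Matrix.mul_one]
    have h1' : mt (iSU n F q) y * pr P i = c • pr P i := by
      rw [pr_def, ← Matrix.mul_assoc, h1, Matrix.smul_mul]
    have h2 : pr P' k * mt (iSU n F q) y = χ k • pr P' k := by
      rw [hχ, pr_Dg hP']
    have h3 : χ k • (pr P' k * pr P i) = c • (pr P' k * pr P i) := by
      rw [← smul_mul_assoc, ← h2, mul_assoc, h1', mul_smul_comm]
    by_contra hne
    have h4 : (χ k - c) • (pr P' k * pr P i) = 0 := by rw [sub_smul, h3, sub_self]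
    rw [smul_eq_zero, sub_eq_zero] at h4
    exact h4.elim hne hk
  have hk0 : ∀ k, k ≠ j → pr P' k * pr P i = 0 := by
    intro k hk
    by_contra hne
    obtain ⟨y, hy, χ, hχ, hχkj⟩ := hdist k j hk
    obtain ⟨c, hc⟩ := hlam y hy χ hχ
    exact hχkj (by rw [hc k hne, hc j hj])
  have h1 : pr P' j * pr P i = pr P i := by
    conv_rhs => rw [← hP'.eq_sum (pr P i)]
    symm
    apply Finset.sum_eq_single j
    · intro k _ hk
      exact hk0 k hk
    · intro h
      exact (h (Finset.mem_univ _)).elim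
  have h2 : pr P i * pr P' j = pr P i := by
    have := congrArg Matrix.conjTranspose h1
    rwa [Matrix.conjTranspose_mul, pr_star, pr_star] at this
  exact (eq_of_le (P := P' j) (P' := P i) (hP.self i) h2).symm

theorem inv_form (hT : Lf π T) (hP : OF P) {y : ↥(Cfsg.SU n F q)} {k : Fin t} (h : T (π y) (pr P k) = pr P k) :
    mt (iSU n F q) (y⁻¹ * y⁻¹) * P k = P k * ((P k)ᴴ * mt (iSU n F q) (y⁻¹ * y⁻¹) * P k) := by
  apply blk_form hP hT
  have h4 : T (π y⁻¹) (pr P k) = pr P k := by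
    conv_lhs => rw [← h]
    rw [map_inv, T_inv]
  rw [map_mul, T_mul, h4, h4]

theorem triv_blk (hT : Lf π T) (hP : OF P) {y v u : ↥(Cfsg.SU n F q)} {k : Fin t} (h : T (π y) (pr P k) = pr P k)
    (hvk : mt (iSU n F q) v * P k = mt (iSU n F q) y * P k)
    (huyv : mt (iSU n F q) u * (mt (iSU n F q) v * mt (iSU n F q) y) = mt (iSU n F q) y * mt (iSU n F q) v) :
    mt (iSU n F q) u * P k = P k := by
  have hyf := blk_form hP hT h
  have hyif := inv_form hT hP h
  have hyy : mt (iSU n F q) y * (mt (iSU n F q) y * (mt (iSU n F q) (y⁻¹ * y⁻¹) * P k)) = P k := by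
    rw [← Matrix.mul_assoc, ← Matrix.mul_assoc, ← mt_mul, ← mt_mul]
    have : y * y * (y⁻¹ * y⁻¹) = 1 := by group
    rw [this, mt_one, Matrix.one_mul]
  rw [hyif] at hyy
  have e1 : mt (iSU n F q) v * (mt (iSU n F q) y * P k) = mt (iSU n F q) y * (mt (iSU n F q) y * P k) := by
    conv_lhs => rw [hyf]
    rw [← Matrix.mul_assoc, hvk, Matrix.mul_assoc, ← hyf]
  generalize (P k)ᴴ * mt (iSU n F q) (y⁻¹ * y⁻¹) * P k = K at hyy
  generalize mt (iSU n F q) u = U at *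
  generalize mt (iSU n F q) v = V at *
  generalize mt (iSU n F q) y = Z at *
  apply triv_of (Y := Z) (K := K)
  · calc U * (Z * (Z * P k)) = U * (V * (Z * P k)) := by rw [e1]
      _ = (U * (V * Z)) * P k := by simp only [Matrix.mul_assoc]
      _ = Z * (V * P k) := by rw [huyv, Matrix.mul_assoc]
      _ = _ := by rw [hvk]
  · rw [Matrix.mul_assoc, Matrix.mul_assoc]
    exact hyy

include hF hs in
/-- the block on which some element of `Y` is not scalar -/
theorem blk_nonscalar (hT : Lf π T) (hA : Fr π T A e) (he : ∀ i, e i = pr P i) (hP : OF P) (hP' : OF P')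
    (hconj : ConjAx F m) {Y : Subgroup G} (hTW : TWp A Y)
    (hfix : ∀ y, π y ∈ Y → ∀ i, T (π y) (pr P i) = pr P i)
    (hscal : ∀ y, π y ∈ Y → ∃ χ : Fin t → F, mt (iSU n F q) y = Dg P' χ) {i : Fin t} {y : ↥(Cfsg.SU n F q)}
    (hy : π y ∈ Y) (hsc : ¬ ∃ c : F, (P i)ᴴ * mt (iSU n F q) y * P i = c • (1 : Matrix (Fin m) (Fin m) F)) :
    ∃ j, pr P i = pr P' j := by
  obtain ⟨α, h1, h2, h3⟩ := hconj _ hsc
  obtain ⟨s, hs1⟩ := exists_blk hF hs hP i h1 h2
  have hsA : π s ∈ A := hA.mem_of_comm hT he (fun k => by rw [hs1, blk_comm hP])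
  obtain ⟨b1, b2⟩ := comm_blk hF hs hP hT (hfix y hy) hs1
  obtain ⟨v, hv⟩ : ∃ v, v = s * y * s⁻¹ := ⟨_, rfl⟩
  obtain ⟨u, hu⟩ : ∃ u, u = y * v * y⁻¹ * v⁻¹ := ⟨_, rfl⟩
  rw [← hv] at b1 b2
  have huY : π u ∈ Y := by
    have h4 := hTW.comm' hsA hy
    have e1 : π u = π y * (π s * π y * (π s)⁻¹) * (π y)⁻¹ * (π s * π y * (π s)⁻¹)⁻¹ := by
      rw [hu, hv]
      simp only [map_mul, map_inv]
    rw [e1]
    exact h4
  have huyv : mt (iSU n F q) u * (mt (iSU n F q) v * mt (iSU n F q) y) = mt (iSU n F q) y * mt (iSU n F q) v := by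
    rw [← mt_mul, ← mt_mul, ← mt_mul]
    congr 1
    rw [hu]
    group
  have hyf := fun k => blk_form hP hT (hfix y hy k)
  have huk : ∀ k, k ≠ i → mt (iSU n F q) u * P k = P k := fun k hk => triv_blk hT hP (hfix y hy k) (b1 k hk) huyv
  obtain ⟨χ, hχ⟩ := hscal u huY
  obtain ⟨j, hj⟩ : ∃ j, χ j ≠ 1 := by
    by_contra hcon
    push Not at hcon
    have hu1 : mt (iSU n F q) u = 1 := by
      rw [hχ]
      symm
      apply Dg_ext hP'
      intro k
      rw [one_mul, hcon k, one_smul]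
    apply h3
    rw [hu1, one_mul] at huyv
    have h8 := congrArg (fun x => (P i)ᴴ * x * P i) huyv
    beta_reduce at h8
    rw [corner_mul b2, corner_mul' (hP.self i) b2 (hyf i)] at h8
    exact h8.symm
  refine ⟨j, ?_⟩
  have hju : pr P' j * mt (iSU n F q) u = χ j • pr P' j := by rw [hχ, pr_Dg hP']
  have hui : (mt (iSU n F q) u - 1) * pr P i = mt (iSU n F q) u - 1 := by
    conv_rhs => rw [← hP.eq_sum' (mt (iSU n F q) u - 1)]
    symm
    apply Finset.sum_eq_single i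
    · intro k _ hk
      rw [pr_def, ← Matrix.mul_assoc, Matrix.sub_mul, huk k hk, Matrix.one_mul, sub_self, Matrix.zero_mul]
    · intro h
      exact (h (Finset.mem_univ _)).elim
  have h4 : (χ j - 1) • (pr P' j * pr P i) = (χ j - 1) • pr P' j := by
    have h5 : pr P' j * (mt (iSU n F q) u - 1) = (χ j - 1) • pr P' j := by
      rw [mul_sub, mul_one, hju, sub_smul, one_smul]
    rw [← smul_mul_assoc, ← h5, mul_assoc, hui]
  have h5 : pr P' j * pr P i = pr P' j := by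
    have h6 : (χ j - 1) • (pr P' j * pr P i - pr P' j) = 0 := by rw [smul_sub, h4, sub_self]
    rw [smul_eq_zero, sub_eq_zero, sub_eq_zero] at h6
    exact h6.resolve_left hj
  exact eq_of_le (hP'.self j) h5

include hF hs in
/-- **the frames coincide** -/
theorem final_eq (hn : 3 ≤ n) (hM : Model N (iSU n F q) π) (hT : Lf π T) (hA : Fr π T A e) (hC : Fr π T C e')
    (hP : OF P) (hP' : OF P') (he : ∀ i, e i = pr P i) (he' : ∀ i, e' i = pr P' i) (hm : 0 < m) (hconj : ConjAx F m)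
    {Y : Subgroup G} (hY0 : Y ≠ ⊥) (hYN : Y ≤ N) (hYab : ∀ x ∈ Y, ∀ y ∈ Y, x * y = y * x)
    (hYn : ∀ c ∈ C, ∀ y ∈ Y, c * y * c⁻¹ ∈ Y) (hTW : TWp A Y) (hfix : ∀ y, π y ∈ Y → ∀ i, T (π y) (pr P i) = pr P i)
    (hfix' : ∀ y, π y ∈ Y → ∀ i, T (π y) (pr P' i) = pr P' i) : A ⊓ N = C ⊓ N := by
  have hn0 : 0 < n := by omega
  have hscal : ∀ y, π y ∈ Y → ∃ χ : Fin t → F, mt (iSU n F q) y = Dg P' χ := fun y hy =>
    scal hF hs hC hP' he' hM hT hm hconj hYab hYn hfix' hy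
  have hdist := dist hF hs hn0 hM hT hC hP' he' hY0 hYN hYn hscal
  have hblk : ∀ i, ∃ j, pr P i = pr P' j := by
    intro i
    by_cases hall : ∀ y, π y ∈ Y → ∃ c : F, (P i)ᴴ * mt (iSU n F q) y * P i = c • (1 : Matrix (Fin m) (Fin m) F)
    · exact blk_scalar hT hP hP' hm hfix hdist hall
    · obtain ⟨y, hy⟩ := not_forall.1 hall
      obtain ⟨hy1, hy2⟩ := Classical.not_imp.1 hy
      exact blk_nonscalar hF hs hT hA he hP hP' hconj hTW hfix hscal hy1 hy2
  choose f hf using hblk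
  have hfinj : Function.Injective f := by
    intro i j hij
    apply hP.pr_inj hm
    rw [hf, hf, hij]
  have hfsurj : Function.Surjective f := Finite.injective_iff_surjective.1 hfinj
  ext x
  simp only [Subgroup.mem_inf]
  constructor
  · rintro ⟨hxA, hxN⟩
    refine ⟨?_, hxN⟩
    rw [← hM.range] at hxN
    obtain ⟨s, rfl⟩ := hxN
    apply hC.stab
    intro j
    obtain ⟨i, rfl⟩ := hfsurj j
    obtain ⟨k, hk⟩ := hA.perm _ hxA i
    refine ⟨f k, ?_⟩
    rw [he', he', ← hf, ← hf, ← he, ← he, hk]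
  · rintro ⟨hxC, hxN⟩
    refine ⟨?_, hxN⟩
    rw [← hM.range] at hxN
    obtain ⟨s, rfl⟩ := hxN
    apply hA.stab
    intro i
    obtain ⟨k, hk⟩ := hC.perm _ hxC (f i)
    obtain ⟨l, rfl⟩ := hfsurj k
    refine ⟨l, ?_⟩
    rw [he, he, hf, hf, ← he', ← he', hk]

end

end Cfsg.Agent.H189.TW
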