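import Cfsg.Agent.H189.TW.Fam

/-!
# S3694, T6: the action of `G` on the matrix ring (helper189)

`Lf N π T` : `T : G →* Aut (M_n(F))` is the homomorphism given by the lifts; it commutes with the adjoint, and all the `Ind` are
`T g` or `T g` after the adjoint.
* `exists_Lf` : existence.
-/

set_option autoImplicit false

namespace Cfsg.Agent.H189.TW

open Matrix Subgroup Cfsg Cfsg.Agent.H607.TW
open Cfsg.Agent.H296.TW (tauP_mul tauM_mul not_mul_and_anti ind_tauP ind_tauM lift_su st_st)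
open Cfsg.Agent.LieClassical.HermBasic (q_pos)
open scoped commutatorElement
open Cfsg.Agent.H748.TW (mt_mul mt_one mt_inj mt_mul_inv mt_inv_mul)

universe u

/-- The lifts of the elements of `G` form an action on the matrix ring with involution. -/
structure Lf {G : Type u} [Group G] {F : Type} [Field F] [StarRing F] {n q : ℕ} (π : ↥(Cfsg.SU n F q) →* G)
    (T : G →* RingAut (Matrix (Fin n) (Fin n) F)) : Prop where
  str : ∀ g x, T g xᴴ = (T g x)ᴴ
  pi : ∀ s x, T (π s) x = mt (iSU n F q) s * x * mt (iSU n F q) s⁻¹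
  ind : ∀ g τ, Ind (iSU n F q) π g τ → (∀ x, τ x = T g x) ∨ (∀ x, τ x = T g xᴴ)
  self : ∀ g, ∃ τ, Ind (iSU n F q) π g τ ∧ ∀ x, τ x = T g x
  semi : ∀ g, ∃ (B : Matrix.GeneralLinearGroup (Fin n) F) (σ : F ≃+* F), ∀ x, T g x =
    (B : Matrix (Fin n) (Fin n) F) * x.map σ * ((B⁻¹ : Matrix.GeneralLinearGroup (Fin n) F) : Matrix (Fin n) (Fin n) F)
  faithful : ∀ g, (∀ x, T g x = x) → g = 1
  conj : ∀ g s, ∃ s', mt (iSU n F q) s' = T g (mt (iSU n F q) s) ∧ π s' = g * π s * g⁻¹

section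

variable {G : Type u} [Group G] {F : Type} [Field F] [Fintype F] [StarRing F] {q n : ℕ} (hF : Fintype.card F = q ^ 2)
  (hs : ∀ x : F, star x = x ^ q) {N : Subgroup G} {π : ↥(Cfsg.SU n F q) →* G}

/-- the standard family -/
def Pe (n : ℕ) (F : Type) [Field F] (i : Fin n) : Matrix (Fin n) (Fin 1) F := fun a _ => if a = i then 1 else 0

omit [Fintype F] in
theorem Pe_OF : OF (Pe n F) := by
  refine ⟨fun i => ?_, fun i j hij => ?_, ?_⟩
  · ext a b
    rw [Matrix.mul_apply, Finset.sum_eq_single i]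
    · have : a = b := Subsingleton.elim _ _
      subst this
      simp [Pe, Matrix.conjTranspose_apply]
    · intro c _ hc
      simp [Pe, hc]
    · simp
  · ext a b
    rw [Matrix.mul_apply, Matrix.zero_apply]
    refine Finset.sum_eq_zero fun c _ => ?_
    by_cases hc : c = j
    · subst hc
      simp [Pe, Matrix.conjTranspose_apply, hij.symm]
    · simp [Pe, hc]
  · ext a b
    rw [Matrix.sum_apply]
    by_cases hab : a = b
    · subst hab
      rw [Matrix.one_apply_eq, Finset.sum_eq_single a]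
      · simp [Pe, Matrix.mul_apply, Matrix.conjTranspose_apply]
      · intro c _ hc
        simp [Pe, Matrix.mul_apply, hc.symm]
      · simp
    · rw [Matrix.one_apply_ne hab]
      refine Finset.sum_eq_zero fun c _ => ?_
      by_cases hc : a = c
      · subst hc
        simp [Pe, Matrix.mul_apply, Matrix.conjTranspose_apply, Ne.symm hab]
      · simp [Pe, Matrix.mul_apply, hc]

omit [Fintype F] [StarRing F] in
theorem span_ind {V : Submodule F (Matrix (Fin n) (Fin n) F)} (hsp : Submodule.span F (Set.range (mt (iSU n F q))) = ⊤)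
    (h : ∀ s, mt (iSU n F q) s ∈ V) (x : Matrix (Fin n) (Fin n) F) : x ∈ V := by
  have h1 : Submodule.span F (Set.range (mt (iSU n F q))) ≤ V := by
    rw [Submodule.span_le]
    rintro _ ⟨s, rfl⟩
    exact h s
  rw [hsp] at h1
  exact h1 Submodule.mem_top

omit [Fintype F] [StarRing F] in
theorem scalar_of (hn : 0 < n) {H : Matrix (Fin n) (Fin n) F} (h : ∀ x, H * x = x * H) :
    H = H ⟨0, hn⟩ ⟨0, hn⟩ • (1 : Matrix (Fin n) (Fin n) F) := by
  have h2 : H ∈ Set.range (Matrix.scalar (Fin n)) := by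
    rw [Matrix.mem_range_scalar_iff_commute_single]
    intro i j _
    exact (h _).symm
  obtain ⟨c, hc⟩ := h2
  rw [← hc, Matrix.scalar_apply, Matrix.diagonal_apply_eq, Matrix.smul_one_eq_diagonal]

omit [Fintype F] [StarRing F] in
/-- automorphisms of the matrix ring are semilinear -/
theorem semi (hn : 0 < n) (ρ : RingAut (Matrix (Fin n) (Fin n) F)) :
    ∃ σ : F →+* F, ∀ (c : F) (x : Matrix (Fin n) (Fin n) F), ρ (c • x) = σ c • ρ x := by
  let i0 : Fin n := ⟨0, hn⟩
  let σ0 : F → F := fun c => ρ (c • (1 : Matrix (Fin n) (Fin n) F)) i0 i0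
  have hσ : ∀ c : F, ρ (c • (1 : Matrix (Fin n) (Fin n) F)) = σ0 c • (1 : Matrix (Fin n) (Fin n) F) := by
    intro c
    apply scalar_of hn
    intro y
    obtain ⟨z, rfl⟩ := ρ.surjective y
    rw [← map_mul, ← map_mul, smul_mul_assoc, one_mul, mul_smul_comm, mul_one]
  have hs1 : ∀ c d : F, c • (1 : Matrix (Fin n) (Fin n) F) = d • (1 : Matrix (Fin n) (Fin n) F) → c = d := by
    intro c d hcd
    have := congrFun (congrFun hcd i0) i0
    simpa using this
  refine ⟨{ toFun := σ0, map_one' := ?_, map_mul' := ?_, map_zero' := ?_, map_add' := ?_ }, fun c x => ?_⟩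
  · apply hs1
    rw [← hσ, one_smul, map_one]
  · intro c d
    apply hs1
    rw [← hσ]
    have e1 : (c * d) • (1 : Matrix (Fin n) (Fin n) F) = (c • 1) * (d • 1) := by
      rw [smul_mul_smul_comm, mul_one]
    rw [e1, map_mul, hσ, hσ, smul_mul_smul_comm, mul_one]
  · apply hs1
    change σ0 0 • (1 : Matrix (Fin n) (Fin n) F) = _
    rw [← hσ, zero_smul, map_zero]
  · intro c d
    apply hs1
    change σ0 (c + d) • (1 : Matrix (Fin n) (Fin n) F) = _
    rw [← hσ, add_smul, map_add, hσ, hσ, ← add_smul]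
  · change _ = σ0 c • ρ x
    have e1 : c • x = (c • 1) * x := by rw [smul_mul_assoc, one_mul]
    rw [e1, map_mul, hσ, smul_mul_assoc, one_mul]

include hF hs in
/-- an automorphism of the matrix ring fixing the elements of `SU_n(q)` is trivial -/
theorem fix_all (hn : 3 ≤ n) (hsp : Submodule.span F (Set.range (mt (iSU n F q))) = ⊤)
    (ρ : RingAut (Matrix (Fin n) (Fin n) F)) (h : ∀ s, ρ (mt (iSU n F q) s) = mt (iSU n F q) s)
    (x : Matrix (Fin n) (Fin n) F) : ρ x = x := by
  classical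
  have hn0 : 0 < n := by omega
  let i0 : Fin n := ⟨0, hn0⟩
  let i1 : Fin n := ⟨1, by omega⟩
  let i2 : Fin n := ⟨2, by omega⟩
  have h01 : i0 ≠ i1 := by simp [i0, i1]
  have h02 : i0 ≠ i2 := by simp [i0, i2]
  have h12 : i1 ≠ i2 := by simp [i1, i2]
  obtain ⟨σ, hσ⟩ := semi hn0 ρ
  set D : Matrix (Fin n) (Fin n) F := pr (Pe n F) i1 - pr (Pe n F) i2 with hD
  have hD0 : D ≠ 0 := by
    intro h0
    have h1 : pr (Pe n F) i1 * D = 0 := by rw [h0, mul_zero]
    rw [hD, mul_sub, Pe_OF.pr_mul_self, Pe_OF.pr_mul_ne h12, sub_zero] at h1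
    exact Pe_OF.pr_ne_zero one_pos i1 h1
  have hfix : ∀ a : F, a * a ^ q = 1 → ρ ((a⁻¹ - 1) • D) = (a⁻¹ - 1) • D := by
    intro a ha
    obtain ⟨s, hs1⟩ := exists_dg hF hs (Pe_OF (n := n) (F := F)) h01 ha
    obtain ⟨t, ht1⟩ := exists_dg hF hs (Pe_OF (n := n) (F := F)) h02 ha
    have e1 : (a⁻¹ - 1) • D = mt (iSU n F q) s - mt (iSU n F q) t := by
      rw [hs1, ht1, hD, smul_sub]
      abel
    rw [e1, map_sub, h, h]
  obtain ⟨β, hβ, hβ1⟩ : ∃ β : F, β * β ^ q = 1 ∧ β ≠ 1 := by
    by_contra hcon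
    push Not at hcon
    have h1 : nrm F q ⊆ {1} := by
      intro a ha
      rw [Finset.mem_singleton]
      exact hcon a (mem_nrm.1 ha)
    have h2 := Finset.card_le_card h1
    rw [card_nrm hF, Finset.card_singleton] at h2
    have := q_pos hF
    omega
  have hβ2 : β⁻¹ - 1 ≠ 0 := by
    intro h0
    apply hβ1
    rw [sub_eq_zero, inv_eq_one] at h0
    exact h0
  have hβ3 : σ (β⁻¹ - 1) ≠ 0 := by
    rw [map_ne_zero]
    exact hβ2
  have hρD : ρ D = ((β⁻¹ - 1) / σ (β⁻¹ - 1)) • D := by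
    have h1 := hfix β hβ
    rw [hσ] at h1
    rw [div_eq_inv_mul, mul_smul, ← h1, smul_smul, inv_mul_cancel₀ hβ3, one_smul]
  have hσ2 : ∀ b : F, b * b ^ q = 1 → σ ((b⁻¹ - 1) / (β⁻¹ - 1)) = (b⁻¹ - 1) / (β⁻¹ - 1) := by
    intro b hb
    have h1 := hfix b hb
    rw [hσ, hρD, smul_smul, ← sub_eq_zero, ← sub_smul, smul_eq_zero] at h1
    have h2 := (sub_eq_zero.1 (h1.resolve_right hD0))
    rw [← mul_div_assoc, div_eq_iff hβ3] at h2
    rw [map_div₀, div_eq_div_iff hβ3 hβ2, h2]
  have hσ3 : ∀ c, σ c = c := by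
    apply fix_of_many hF σ ((nrm F q).image fun b => (b⁻¹ - 1) / (β⁻¹ - 1))
    · rw [Finset.card_image_of_injective, card_nrm hF]
      · omega
      · intro a b hab
        simp only at hab
        rw [div_left_inj' hβ2, sub_left_inj, _root_.inv_inj] at hab
        exact hab
    · intro a ha
      obtain ⟨b, hb, rfl⟩ := Finset.mem_image.1 ha
      exact hσ2 b (mem_nrm.1 hb)
  let V : Submodule F (Matrix (Fin n) (Fin n) F) :=
    { carrier := {y | ρ y = y}
      add_mem' := by
        intro a b ha hb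
        change ρ (a + b) = a + b
        rw [map_add]
        exact congrArg₂ _ ha hb
      zero_mem' := map_zero ρ
      smul_mem' := by
        intro c a ha
        change ρ (c • a) = c • a
        rw [hσ, hσ3]
        exact congrArg _ ha }
  exact span_ind (V := V) hsp (fun s => h s) x

include hF hs in
/-- the multiplicative lift is unique -/
theorem uniq (hn : 3 ≤ n) (hM : Model N (iSU n F q) π) {g : G} {τ τ' : RingAut (Matrix (Fin n) (Fin n) F)}
    (h : ∀ s, ∃ s', mt (iSU n F q) s' = τ (mt (iSU n F q) s) ∧ π s' = g * π s * g⁻¹)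
    (h' : ∀ s, ∃ s', mt (iSU n F q) s' = τ' (mt (iSU n F q) s) ∧ π s' = g * π s * g⁻¹) (x : Matrix (Fin n) (Fin n) F) :
    τ x = τ' x := by
  have key : ∀ s, ∃ c : F, τ (mt (iSU n F q) s) = c • τ' (mt (iSU n F q) s) := by
    intro s
    obtain ⟨s1, h1, h2⟩ := h s
    obtain ⟨s2, h3, h4⟩ := h' s
    have h5 : π (s1 * s2⁻¹) = 1 := by rw [map_mul, map_inv, h2, h4, mul_inv_cancel]
    obtain ⟨c, hc⟩ := (hM.ker _).1 h5
    refine ⟨c, ?_⟩
    have h6 : s1 = s1 * s2⁻¹ * s2 := by group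
    rw [← h1, ← h3, h6, mt_mul, hc, smul_mul_assoc, one_mul]
  let f : ↥(Cfsg.SU n F q) →* (Matrix (Fin n) (Fin n) F)ˣ :=
    (Units.map (τ : Matrix (Fin n) (Fin n) F →* Matrix (Fin n) (Fin n) F)).comp (iSU n F q)
  let f' : ↥(Cfsg.SU n F q) →* (Matrix (Fin n) (Fin n) F)ˣ :=
    (Units.map (τ' : Matrix (Fin n) (Fin n) F →* Matrix (Fin n) (Fin n) F)).comp (iSU n F q)
  have hf : ∀ s, (f s : Matrix (Fin n) (Fin n) F) = τ (mt (iSU n F q) s) := fun s => rfl
  have hf' : ∀ s, (f' s : Matrix (Fin n) (Fin n) F) = τ' (mt (iSU n F q) s) := fun s => rfl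
  have hinv : ∀ s, ∀ c d : F, τ (mt (iSU n F q) s) = c • τ' (mt (iSU n F q) s) →
      τ (mt (iSU n F q) s⁻¹) = d • τ' (mt (iSU n F q) s⁻¹) → (c * d) • (1 : Matrix (Fin n) (Fin n) F) = 1 := by
    intro s c d hc hd
    have h1 : τ (mt (iSU n F q) s) * τ (mt (iSU n F q) s⁻¹) = 1 := by rw [← map_mul, mt_mul_inv, map_one]
    have h2 : τ' (mt (iSU n F q) s) * τ' (mt (iSU n F q) s⁻¹) = 1 := by rw [← map_mul, mt_mul_inv, map_one]
    rw [hc, hd, smul_mul_smul_comm, h2] at h1
    exact h1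
  have hW : commutator ↥(Cfsg.SU n F q) ≤ f.eqLocus f' := by
    rw [commutator_def, Subgroup.commutator_le]
    intro s _ t _
    change f ⁅s, t⁆ = f' ⁅s, t⁆
    apply Units.ext
    rw [hf, hf', commutatorElement_def, mt_mul, mt_mul, mt_mul]
    simp only [map_mul]
    obtain ⟨c, hc⟩ := key s
    obtain ⟨c', hc'⟩ := key s⁻¹
    obtain ⟨d, hd⟩ := key t
    obtain ⟨d', hd'⟩ := key t⁻¹
    have e1 := hinv s c c' hc hc'
    have e2 := hinv t d d' hd hd'
    rw [hc, hc', hd, hd']
    simp only [smul_mul_assoc, mul_smul_comm, smul_smul]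
    generalize τ' (mt (iSU n F q) s) * τ' (mt (iSU n F q) t) * τ' (mt (iSU n F q) s⁻¹) * τ' (mt (iSU n F q) t⁻¹) = z
    calc _ = ((c * c') • (1 : Matrix (Fin n) (Fin n) F)) * (((d * d') • (1 : Matrix (Fin n) (Fin n) F)) * z) := by
          rw [smul_mul_assoc, one_mul, smul_mul_assoc, one_mul, smul_smul]
          congr 1
          ring
      _ = z := by rw [e1, e2, one_mul, one_mul]
  have hW2 : ∀ s, τ (mt (iSU n F q) s) = τ' (mt (iSU n F q) s) := by
    intro s
    have h1 : s ∈ f.eqLocus f' := hW (by rw [hM.perfect]; trivial)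
    have h2 : f s = f' s := h1
    have h3 := congrArg Units.val h2
    rw [hf, hf'] at h3
    exact h3
  have h3 : (τ'⁻¹ * τ) x = x := by
    refine fix_all hF hs hn hM.span (τ'⁻¹ * τ) (fun s => ?_) x
    rw [RingAut.mul_apply, hW2, ← RingAut.mul_apply, inv_mul_cancel, RingAut.one_apply]
  rw [RingAut.mul_apply] at h3
  have h4 := congrArg τ' h3
  rw [← RingAut.mul_apply, mul_inv_cancel, RingAut.one_apply] at h4
  exact h4

/-- conjugation by an element of `SU_n(q)` -/
def cj (s : ↥(Cfsg.SU n F q)) : RingAut (Matrix (Fin n) (Fin n) F) where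
  toFun x := mt (iSU n F q) s * x * mt (iSU n F q) s⁻¹
  invFun x := mt (iSU n F q) s⁻¹ * x * mt (iSU n F q) s
  left_inv x := by
    calc _ = (mt (iSU n F q) s⁻¹ * mt (iSU n F q) s) * x * (mt (iSU n F q) s⁻¹ * mt (iSU n F q) s) := by
          simp only [mul_assoc]
      _ = x := by rw [mt_inv_mul, one_mul, mul_one]
  right_inv x := by
    calc _ = (mt (iSU n F q) s * mt (iSU n F q) s⁻¹) * x * (mt (iSU n F q) s * mt (iSU n F q) s⁻¹) := by
          simp only [mul_assoc]
      _ = x := by rw [mt_mul_inv, one_mul, mul_one]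
  map_mul' x y := by
    calc _ = mt (iSU n F q) s * x * 1 * y * mt (iSU n F q) s⁻¹ := by simp only [mul_assoc, one_mul]
      _ = _ := by rw [← mt_inv_mul (ι := iSU n F q) s]; simp only [mul_assoc]
  map_add' x y := by rw [mul_add, add_mul]

include hF hs in
/-- **the action of `G` on the matrix ring** -/
theorem exists_Lf (hn : 3 ≤ n) (hM : Model N (iSU n F q) π) (hc : centralizer (N : Set G) = ⊥) :
    ∃ T : G →* RingAut (Matrix (Fin n) (Fin n) F), Lf π T := by
  have hn2 : 2 ≤ n := by omega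
  choose B σ hB hind using fun g => lift_su hF hn hM g
  let T0 : G → RingAut (Matrix (Fin n) (Fin n) F) := fun g => { tauP (B g) (σ g) with map_mul' := tauP_mul (B g) (σ g) }
  have hT0 : ∀ g x, T0 g x = tauP (B g) (σ g) x := fun g x => rfl
  have hT1 : ∀ g s, ∃ s', mt (iSU n F q) s' = T0 g (mt (iSU n F q) s) ∧ π s' = g * π s * g⁻¹ := fun g s =>
    (ind_tauP hn2).1 (hind g) s
  let T : G →* RingAut (Matrix (Fin n) (Fin n) F) := MonoidHom.mk' T0 (by
    intro g h
    apply RingEquiv.ext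
    intro x
    refine uniq hF hs hn hM (g := g * h) (hT1 (g * h)) (fun s => ?_) x
    obtain ⟨s1, h1, h2⟩ := hT1 h s
    obtain ⟨s2, h3, h4⟩ := hT1 g s1
    refine ⟨s2, ?_, ?_⟩
    · rw [h3, h1, RingAut.mul_apply]
    · rw [h4, h2]
      group)
  have hT : ∀ g, T g = T0 g := fun g => rfl
  have hstr : ∀ g x, T g xᴴ = (T g x)ᴴ := by
    intro g x
    rw [hT, hT0, hT0, tauP_apply, tauP_apply]
    have h1 : (B g : Matrix (Fin n) (Fin n) F)ᴴ * (B g : Matrix (Fin n) (Fin n) F) = 1 := by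
      rw [← st_eq hF hs]
      exact (Cfsg.Agent.H296.TW.mem_GU_iff_st hF _).1 (hB g)
    have h2 : (((B g)⁻¹ : Matrix.GeneralLinearGroup (Fin n) F) : Matrix (Fin n) (Fin n) F) =
        (B g : Matrix (Fin n) (Fin n) F)ᴴ := by
      have h3 := Cfsg.Agent.H296.TW.GL_mul_inv (B g)
      calc _ = ((B g : Matrix (Fin n) (Fin n) F)ᴴ * (B g : Matrix (Fin n) (Fin n) F)) *
            (((B g)⁻¹ : Matrix.GeneralLinearGroup (Fin n) F) : Matrix (Fin n) (Fin n) F) := by rw [h1, one_mul]
        _ = _ := by rw [mul_assoc, h3, mul_one]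
    have h3 : (x.map (σ g))ᴴ = xᴴ.map (σ g) := by
      ext i j
      rw [Matrix.conjTranspose_apply, Matrix.map_apply, Matrix.map_apply, Matrix.conjTranspose_apply, hs, hs, map_pow]
    rw [h2, Matrix.conjTranspose_mul, Matrix.conjTranspose_mul, Matrix.conjTranspose_conjTranspose, h3, Matrix.mul_assoc]
  refine ⟨T, ⟨hstr, ?_, ?_, ?_, ?_, ?_, ?_⟩⟩
  · intro s x
    refine uniq hF hs hn hM (g := π s) (τ := T (π s)) (τ' := cj s) (hT1 (π s)) (fun s' => ?_) x
    refine ⟨s * s' * s⁻¹, ?_, ?_⟩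
    · rw [mt_mul, mt_mul]
      rfl
    · rw [map_mul, map_mul, map_inv]
  · rintro g τ (⟨h1, h2⟩ | ⟨h1, h2⟩)
    · left
      intro x
      let τ' : RingAut (Matrix (Fin n) (Fin n) F) := { τ with map_mul' := h1 }
      exact uniq hF hs hn hM (g := g) (τ := τ') (τ' := T g) h2 (hT1 g) x
    · right
      intro x
      let τ' : RingAut (Matrix (Fin n) (Fin n) F) :=
        { toFun := fun x => τ xᴴ
          invFun := fun x => (τ.symm x)ᴴ
          left_inv := fun x => by
            change (τ.symm (τ xᴴ))ᴴ = x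
            rw [AddEquiv.symm_apply_apply, Matrix.conjTranspose_conjTranspose]
          right_inv := fun x => by
            change τ ((τ.symm x)ᴴ)ᴴ = x
            rw [Matrix.conjTranspose_conjTranspose, AddEquiv.apply_symm_apply]
          map_mul' := fun x y => by
            change τ (x * y)ᴴ = τ xᴴ * τ yᴴ
            rw [Matrix.conjTranspose_mul, h1]
          map_add' := fun x y => by
            change τ (x + y)ᴴ = τ xᴴ + τ yᴴ
            rw [Matrix.conjTranspose_add, map_add] }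
      have h3 : ∀ x, τ' x = τ xᴴ := fun x => rfl
      have h4 := uniq hF hs hn hM (g := g) (τ := τ') (τ' := T g) (fun s => by
        obtain ⟨s', h5, h6⟩ := h2 s⁻¹
        refine ⟨s', ?_, ?_⟩
        · rw [h3, h5, mt_star hF hs]
        · rw [← _root_.inv_inj, h6, map_inv]
          group) (hT1 g) xᴴ
      rw [h3, Matrix.conjTranspose_conjTranspose] at h4
      exact h4
  · intro g
    exact ⟨_, hind g, fun x => rfl⟩
  · intro g
    exact ⟨B g, σ g, fun x => rfl⟩
  · intro g hg
    have h1 : g ∈ centralizer (N : Set G) := by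
      rw [Subgroup.mem_centralizer_iff]
      intro y hy
      rw [← hM.range] at hy
      obtain ⟨s, rfl⟩ := hy
      obtain ⟨s', h2, h3⟩ := hT1 g s
      rw [← hT, hg] at h2
      have h4 := mt_inj hM.inj h2
      rw [h4] at h3
      calc π s * g = g * π s * g⁻¹ * g := by rw [← h3]
        _ = g * π s := by group
    rw [hc, Subgroup.mem_bot] at h1
    exact h1
  · exact hT1

end

end Cfsg.Agent.H189.TW
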